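import Cfsg.Agent.H655.Mono.Psi
import Cfsg.Agent.H496.Mono.Stmt

/-!
# S2187, X4: orbits of orthogonal long roots (M5O) and fixed long roots (M5F), any odd `p` (helper655)

* `comm_sup` : `⟨X_{±a}⟩`, `⟨X_{±b}⟩` commute for orthogonal long roots;
* `inS_orth` : the orbit of `a` consists of `p` orthogonal roots: `InS r l τ H {a, -a}`; `p5_orbO` : `P5 hp r 3 (OrbO hp)`;
* `inS_fixed` : `a` fixed: `InS r l τ H {a, -a}`; `p5_orbF` : `P5 hp r p (OrbF hp)`.
-/

set_option autoImplicit false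
set_option linter.unusedSectionVars false

namespace Cfsg.Agent.H655.Mono

open CoxeterSystem Cfsg Cfsg.Lie Cfsg.Lie.ChevalleyDatum
open Cfsg.Agent.ChevalleyStructure Cfsg.Agent.ChevalleyStructure.Elts Cfsg.Agent.ChevalleyStructure.CoxeterGeom
  Cfsg.Agent.ChevalleyStructure.CoxeterGeomTypes Cfsg.Agent.ChevalleyStructure.NPerm
open Cfsg.Agent.Tits.Roots Cfsg.Agent.Tits.Core Cfsg.Agent.Nodes Cfsg.Agent.Nodes.Reps Cfsg.Agent.Nodes.BNOf
  Cfsg.Agent.Nodes.SubComb Cfsg.Agent.Nodes.RGDChev Cfsg.Agent.Nodes.Bruhat Cfsg.Agent.Nodes.Coroot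
open Cfsg.Agent.KFacts.RgdField Cfsg.Agent.KFacts.RgdChevCoord
open Cfsg.Agent.BpExc Cfsg.Agent.BpExc.TorCent Cfsg.Agent.BpExc.TorChev Cfsg.Agent.BpExc.Tow
  Cfsg.Agent.BpExc.TowChev Cfsg.Agent.BpExc.Fr Cfsg.Agent.BpExc.LangFr
open Cfsg.Agent.H469.Exc Cfsg.Agent.H316.U6 Cfsg.Agent.H818.Gen Cfsg.Agent.H818.Mono Cfsg.Agent.H496.Mono
open Cfsg.Agent.H225.Gen (LL LL_rep LL_root LL_neg LL_long)
open Cfsg.Agent.H818.StrP.UTab

section Comm

variable {D : ChevalleyDatum} {l : ℕ} {M : CoxeterMatrix (Fin l)} {hp : IsType D l M} {k : Type} [Field k]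

/-- the root groups of orthogonal long roots commute -/
theorem comm_long (h : HiList D) (hk : LocFin k) (r : ℕ) [Fact r.Prime] [CharP k r] {a b : Fin l → ℤ}
    (ha : a ∈ LL M.toCoxeterSystem hp) (hb : b ∈ LL M.toCoxeterSystem hp)
    (h0 : cpr M.toCoxeterSystem hp.isCartan b a = 0) {u v : ↥(D.group k)} (hu : u ∈ XX D l k a)
    (hv : v ∈ XX D l k b) : u * v = v * u := by
  have := finite_W hp M.toCoxeterSystem
  have C := coordsL hp M.toCoxeterSystem hk r
  have har := LL_root h hp _ ha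
  have hbr := LL_root h hp _ hb
  have h0' : cpr M.toCoxeterSystem hp.isCartan a b = 0 := (cpr_zero_comm M.toCoxeterSystem hp.isCartan hbr har).1 h0
  obtain ⟨t, rfl⟩ := ((C.coord a har).mem u).1 hu
  obtain ⟨s, rfl⟩ := ((C.coord b hbr).mem v).1 hv
  have hL := LL_long h hp M.toCoxeterSystem
  refine H46.Gen.xc_commute hp ((isRoot_iff hp M.toCoxeterSystem a).1 har) ((isRoot_iff hp M.toCoxeterSystem b).1 hbr)
    ?_ (Or.inr ?_) t s
  · rintro rfl
    rw [cpr_neg M.toCoxeterSystem hp.isCartan a har, cpr_self M.toCoxeterSystem hp.isCartan har] at h0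
    omega
  · intro m n hm hn hR
    have hz := (isRoot_iff hp M.toCoxeterSystem _).2 hR
    have e1 : cpr M.toCoxeterSystem hp.isCartan ((m : ℤ) • a + (n : ℤ) • b) a = 2 * m := by
      rw [cpr_add M.toCoxeterSystem hp.isCartan _ _ har, cpr_smul M.toCoxeterSystem hp.isCartan _ _ har,
        cpr_smul M.toCoxeterSystem hp.isCartan _ _ har, cpr_self M.toCoxeterSystem hp.isCartan har, h0]
      ring
    have e2 : cpr M.toCoxeterSystem hp.isCartan ((m : ℤ) • a + (n : ℤ) • b) b = 2 * n := by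
      rw [cpr_add M.toCoxeterSystem hp.isCartan _ _ hbr, cpr_smul M.toCoxeterSystem hp.isCartan _ _ hbr,
        cpr_smul M.toCoxeterSystem hp.isCartan _ _ hbr, cpr_self M.toCoxeterSystem hp.isCartan hbr, h0']
      ring
    by_cases hne : (m : ℤ) • a + (n : ℤ) • b = a
    · rw [hne, h0'] at e2
      omega
    · have h1 := hL.le a ha _ hz hne
      rw [e1] at h1
      omega

theorem comm_sup (h : HiList D) (hk : LocFin k) (r : ℕ) [Fact r.Prime] [CharP k r] {a b : Fin l → ℤ}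
    (ha : a ∈ LL M.toCoxeterSystem hp) (hb : b ∈ LL M.toCoxeterSystem hp)
    (h0 : cpr M.toCoxeterSystem hp.isCartan b a = 0) {u v : ↥(D.group k)} (hu : u ∈ RGD.Sup (XX D l k) {a, -a})
    (hv : v ∈ RGD.Sup (XX D l k) {b, -b}) : u * v = v * u := by
  have := finite_W hp M.toCoxeterSystem
  have har := LL_root h hp _ ha
  have hbr := LL_root h hp _ hb
  have key : ∀ x ∈ ({a, -a} : Set (Fin l → ℤ)), ∀ y ∈ ({b, -b} : Set (Fin l → ℤ)), ∀ u ∈ XX D l k x, ∀ v ∈ XX D l k y,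
      u * v = v * u := by
    intro x hx y hy u hu v hv
    have hxL : x ∈ LL M.toCoxeterSystem hp := by
      rcases hx with rfl | rfl
      · exact ha
      · exact LL_neg h hp _ ha
    have hyL : y ∈ LL M.toCoxeterSystem hp := by
      rcases hy with rfl | rfl
      · exact hb
      · exact LL_neg h hp _ hb
    refine comm_long (hp := hp) h hk r hxL hyL ?_ hu hv
    have h1 : cpr M.toCoxeterSystem hp.isCartan y a = 0 := by
      rcases hy with rfl | rfl
      · exact h0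
      · rw [cpr_neg M.toCoxeterSystem hp.isCartan b har, h0, _root_.neg_zero]
    rcases hx with rfl | rfl
    · exact h1
    · rw [cpr_neg_right M.toCoxeterSystem hp.isCartan y har, h1, _root_.neg_zero]
  have h1 : RGD.Sup (XX D l k) {a, -a} ≤ Subgroup.centralizer (RGD.Sup (XX D l k) {b, -b} : Set ↥(D.group k)) := by
    refine RGD.Sup_le fun x hx u hu => ?_
    rw [Subgroup.mem_centralizer_iff]
    intro v hv
    have h2 : RGD.Sup (XX D l k) {b, -b} ≤ Subgroup.centralizer {u} := by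
      refine RGD.Sup_le fun y hy v hv => ?_
      rw [Subgroup.mem_centralizer_singleton_iff]
      exact (key x hx y hy u hu v hv).symm
    have h3 := h2 hv
    rw [Subgroup.mem_centralizer_singleton_iff] at h3
    exact h3
  have h2 := h1 hu
  rw [Subgroup.mem_centralizer_iff] at h2
  exact (h2 v hv).symm

end Comm

variable {D : ChevalleyDatum} {l : ℕ} {M : CoxeterMatrix (Fin l)} {hp : IsType D l M} {r : ℕ} [Fact r.Prime]
  {p e : ℕ} {τ : MulAut ↥(D.group (KK r))} {γ : (Fin l → ℤ) ≃+ (Fin l → ℤ)} {E H : Subgroup ↥(D.group (KK r))}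

/-- conjugates of `⟨X_a, X_{-a}⟩` -/
theorem conj_mem_sup {w : M.Group} {y : ↥(D.group (KK r))} (hy : NR hp r w y) {a : Fin l → ℤ}
    (ha : IsRoot M.toCoxeterSystem hp.isCartan a) {u : ↥(D.group (KK r))} (hu : u ∈ RGD.Sup (XX D l (KK r)) {a, -a}) :
    y * u * y⁻¹ ∈ RGD.Sup (XX D l (KK r)) {rep M.toCoxeterSystem hp.isCartan w a,
      -rep M.toCoxeterSystem hp.isCartan w a} := by
  refine ((nr_frame hy).mem_Sup (S := {a, -a}) ?_ (fun x => ?_) u).2 hu
  · rintro x (rfl | rfl)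
    · exact ha
    · exact ha.neg
  · have hinj : Function.Injective (rep M.toCoxeterSystem hp.isCartan w) :=
      (repAut M.toCoxeterSystem hp.isCartan w).injective
    show rep M.toCoxeterSystem hp.isCartan w x = rep M.toCoxeterSystem hp.isCartan w a ∨
      rep M.toCoxeterSystem hp.isCartan w x = -rep M.toCoxeterSystem hp.isCartan w a ↔ x = a ∨ x = -a
    rw [← map_neg, hinj.eq_iff, hinj.eq_iff]

/-- the stabiliser of `a` in `E` -/
theorem exists_stab (a : Fin l → ℤ) : ∃ Ea : Subgroup ↥(D.group (KK r)), ∀ y, y ∈ Ea ↔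
    y ∈ E ∧ ∃ w, NR hp r w y ∧ rep M.toCoxeterSystem hp.isCartan w a = a :=
  ⟨{  carrier := {y | y ∈ E ∧ ∃ w, NR hp r w y ∧ rep M.toCoxeterSystem hp.isCartan w a = a}
      one_mem' := ⟨one_mem _, 1, nr_one, by rw [map_one, Module.End.one_apply]⟩
      mul_mem' := by
        rintro x y ⟨hx, w, h1, h2⟩ ⟨hy, v, h3, h4⟩
        exact ⟨mul_mem hx hy, w * v, nr_mul h1 h3, by rw [rep_mul_apply, h4, h2]⟩
      inv_mem' := by
        rintro x ⟨hx, w, h1, h2⟩
        refine ⟨inv_mem hx, w⁻¹, nr_inv h1, ?_⟩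
        conv_lhs => rw [← h2]
        rw [← rep_mul_apply, inv_mul_cancel, map_one, Module.End.one_apply] }, fun _ => Iff.rfl⟩

/-- **Orbits of `p` orthogonal long roots.** -/
theorem inS_orth [Fact p.Prime] (h : HiList D) (S : Sit hp r p e τ γ E H) (hr2 : r ≠ 2) (hp2 : p ≠ 2) (hpr : p ≠ r)
    {a : Fin l → ℤ} (ha : a ∈ LL M.toCoxeterSystem hp) (hg : γ a = a ∨ γ a = -a) {f : M.Group} (hf : f ∈ VE hp r E)
    (h0 : ∀ i : ℕ, ¬ p ∣ i → cpr M.toCoxeterSystem hp.isCartan (rep M.toCoxeterSystem hp.isCartan (f ^ i) a) a = 0)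
    (horb : ∀ v ∈ VE hp r E, ∃ j : ℕ, rep M.toCoxeterSystem hp.isCartan v a =
      rep M.toCoxeterSystem hp.isCartan (f ^ j) a) : InS r l τ H {a, -a} := by
  have := finite_W hp M.toCoxeterSystem
  have har := LL_root h hp _ ha
  obtain ⟨ψ, U, hrange, hker, hτ, hact⟩ := exists_psi h S.he S.frob S.fr ha hg
  obtain ⟨f', hf', hff⟩ := hf
  obtain ⟨Ea, hEa⟩ := exists_stab (hp := hp) (E := E) a
  have hmem : ∀ A, ψ A ∈ RGD.Sup (XX D l (KK r)) {a, -a} := fun A => by rw [← hrange]; exact ⟨A, rfl⟩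
  have hq : 1 < r ^ e := Nat.one_lt_pow S.he.ne' (Fact.out : r.Prime).one_lt
  intro u hu hτu hur
  obtain ⟨A, hA, rfl⟩ := fix_form hr2 hker hτ (by rw [hrange]; exact hu) hτu hur
  refine main (r := r) (p := p) (q := r ^ e) (φ := iterateFrobenius (KK r) r e) (Ea := Ea) (U := U) hr2 hp2 hpr hq
    (fun t => iterateFrobenius_def r e t) hker hτ S.el S.fix S.cent (fun y hy => ((hEa y).1 hy).1) ?_ hf' ?_ ?_ ?_ hA
  · intro y hy
    obtain ⟨-, w, h1, h2⟩ := (hEa y).1 hy
    exact hact y w h1 h2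
  · intro i hi A B
    have h1 := conj_mem_sup (nr_pow hff i) har (hmem A)
    exact (comm_sup (hp := hp) h (locFin r) r ha (LL_rep _ _ ha _) (h0 i hi) (hmem B) h1).symm
  · intro i hi h1
    obtain ⟨-, w, h2, h3⟩ := (hEa _).1 h1
    have h4 := h0 i hi
    rw [nr_unique (nr_pow hff i) h2, h3, cpr_self M.toCoxeterSystem hp.isCartan har] at h4
    omega
  · intro y hy
    obtain ⟨v, hv⟩ := S.nrm y hy
    obtain ⟨j, hj⟩ := horb v ⟨y, hy, hv⟩
    refine ⟨j, (hEa _).2 ⟨mul_mem (inv_mem (pow_mem hf' j)) hy, (f ^ j)⁻¹ * v, nr_mul (nr_inv (nr_pow hff j)) hv, ?_⟩⟩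
    rw [rep_mul_apply, hj, ← rep_mul_apply, inv_mul_cancel, map_one, Module.End.one_apply]

theorem eps_cases {ε : ℤ} (hε : ε = 1 ∨ ε = -1) {a : Fin l → ℤ} (ha : γ a = ε • a) : γ a = a ∨ γ a = -a := by
  rcases hε with rfl | rfl
  · left; rw [ha, one_smul]
  · right; rw [ha, neg_smul, one_smul]

/-- **M5O** -/
theorem p5_orbO (h : HiList D) : P5 hp r 3 (OrbO hp) := by
  have : Fact (Nat.Prime 3) := ⟨by norm_num⟩
  have := finite_W hp M.toCoxeterSystem
  intro e τ γ E H S _ hr2 hpr _ ε hε a ha hO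
  obtain ⟨f, hf, h0, horb⟩ := hO
  have har := LL_root h hp _ ha.1
  refine inS_orth h S hr2 (by norm_num) hpr ha.1 (eps_cases hε.1 ha.2) hf (fun i hi => ?_) horb
  have hf3 := VE_pow S hf
  have h1 : f ^ i = f ∨ f ^ i = f⁻¹ := by
    have h2 : f ^ i = f ^ (i % 3) := by
      conv_lhs => rw [← Nat.mod_add_div i 3, pow_add, pow_mul, hf3, one_pow, mul_one]
    have h3 : i % 3 = 1 ∨ i % 3 = 2 := by omega
    rcases h3 with h3 | h3
    · left; rw [h2, h3, pow_one]
    · right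
      rw [h2, h3, eq_inv_iff_mul_eq_one, ← pow_succ]
      exact hf3
  rcases h1 with h1 | h1
  · rw [h1]; exact h0
  · rw [h1]
    have h2 := cpr_rep M.toCoxeterSystem hp.isCartan f (rep M.toCoxeterSystem hp.isCartan f⁻¹ a) har
    rw [← rep_mul_apply, mul_inv_cancel, map_one, Module.End.one_apply] at h2
    rw [← h2]
    exact (cpr_zero_comm M.toCoxeterSystem hp.isCartan (har.act f) har).1 h0

end Cfsg.Agent.H655.Mono
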